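import Cfsg.Agent.H925.Rs.Pair
import Cfsg.Agent.H126.PwO.Fld

/-!
# S3691, symplectic groups: Levi elements of the hyperbolic space `U × U*` (helper150, for helper925)

* `hyp U` : the alternating form on `U × Dual U`; `exists_iso` : any two nondegenerate alternating spaces of the same
  dimension over a finite field are isometric;
* `lev e` : `(u, φ) ↦ (e u, φ ∘ e⁻¹)`; `aeval_lev`;
* `exists_elt` : if `ord_t(q) = 3`, `t` an odd prime: `Isos B` contains, for `dim V = 12`, an element `z` of order `t` such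
  that `ker P(z)` has dimension `3` for some polynomial `P`.
-/

set_option autoImplicit false
set_option linter.unusedSectionVars false

namespace Cfsg.Agent.H150.Rs

open Module Polynomial Cfsg.Agent.H925.Rs

universe u v w

section

variable {F : Type u} [Field F] {U : Type v} [AddCommGroup U] [Module F U]

/-- the alternating form of `U × Dual U` -/
def hyp (F : Type u) [Field F] (U : Type v) [AddCommGroup U] [Module F U] : LinearMap.BilinForm F (U × Dual F U) :=
  LinearMap.mk₂ F (fun x y => y.2 x.1 - x.2 y.1)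
    (fun x x' y => by simp only [Prod.fst_add, Prod.snd_add, map_add, LinearMap.add_apply]; ring)
    (fun c x y => by simp only [Prod.smul_fst, Prod.smul_snd, map_smul, LinearMap.smul_apply, smul_eq_mul]; ring)
    (fun x y y' => by simp only [Prod.fst_add, Prod.snd_add, map_add, LinearMap.add_apply]; ring)
    (fun c x y => by simp only [Prod.smul_fst, Prod.smul_snd, map_smul, LinearMap.smul_apply, smul_eq_mul]; ring)

theorem hyp_apply (x y : U × Dual F U) : hyp F U x y = y.2 x.1 - x.2 y.1 := rfl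

theorem hyp_alt (x : U × Dual F U) : hyp F U x x = 0 := by rw [hyp_apply, sub_self]

theorem hyp_nd (x : U × Dual F U) (h : ∀ y, hyp F U x y = 0) : x = 0 := by
  have h1 : x.1 = 0 := by
    rw [← Module.forall_dual_apply_eq_zero_iff F]
    intro φ
    have := h (0, φ)
    rwa [hyp_apply, map_zero, sub_zero] at this
  have h2 : x.2 = 0 := by
    apply LinearMap.ext
    intro u
    have := h (u, 0)
    rw [hyp_apply, LinearMap.zero_apply, zero_sub, neg_eq_zero] at this
    exact this
  exact Prod.ext h1 h2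

/-- the Levi element of `e` -/
def lev (e : U ≃ₗ[F] U) : (U × Dual F U) ≃ₗ[F] (U × Dual F U) := LinearEquiv.prodCongr e e.symm.dualMap

theorem lev_apply (e : U ≃ₗ[F] U) (x : U × Dual F U) : lev e x = (e x.1, x.2 ∘ₗ (e.symm : U →ₗ[F] U)) := rfl

theorem lev_mem (e : U ≃ₗ[F] U) : lev e ∈ Isos (hyp F U) := by
  intro x y
  rw [lev_apply, lev_apply, hyp_apply, hyp_apply]
  change y.2 (e.symm (e x.1)) - x.2 (e.symm (e y.1)) = _
  rw [e.symm_apply_apply, e.symm_apply_apply]

theorem lev_mul (e e' : U ≃ₗ[F] U) : lev (e * e') = lev e * lev e' := by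
  apply LinearEquiv.ext
  intro x
  rfl

theorem lev_one : lev (1 : U ≃ₗ[F] U) = 1 := by
  apply LinearEquiv.ext
  intro x
  rfl

theorem lev_pow (e : U ≃ₗ[F] U) (n : ℕ) : lev (e ^ n) = lev e ^ n := by
  induction n with
  | zero => rw [pow_zero, pow_zero, lev_one]
  | succ n ih => rw [pow_succ, pow_succ, lev_mul, ih]

theorem coe_pow {V : Type*} [AddCommGroup V] [Module F V] (e : V ≃ₗ[F] V) (n : ℕ) :
    ((e ^ n : V ≃ₗ[F] V) : End F V) = (e : End F V) ^ n := by
  induction n with
  | zero => rfl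
  | succ n ih =>
    rw [pow_succ, pow_succ, ← ih]
    rfl

theorem aeval_lev (e : U ≃ₗ[F] U) (P : F[X]) (x : U × Dual F U) :
    aeval (lev e : End F (U × Dual F U)) P x = (aeval (e : End F U) P x.1, x.2 ∘ₗ aeval (e.symm : End F U) P) := by
  induction P using Polynomial.induction_on' with
  | add p q hp hq =>
    rw [map_add, map_add, map_add, LinearMap.add_apply, LinearMap.add_apply, hp, hq, LinearMap.comp_add]
    rfl
  | monomial n a =>
    rw [aeval_monomial, aeval_monomial, aeval_monomial, ← Algebra.smul_def, ← Algebra.smul_def, ← Algebra.smul_def,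
      LinearMap.smul_apply, LinearMap.smul_apply, LinearMap.comp_smul, ← coe_pow, ← coe_pow, ← coe_pow, ← lev_pow]
    have h : ((e.symm ^ n : U ≃ₗ[F] U) : End F U) = ((e ^ n).symm : U ≃ₗ[F] U) := by
      have : e.symm ^ n = (e ^ n).symm := inv_pow e n
      rw [this]
    rw [h]
    rfl

end

/-! ### isometries -/

section

open Cfsg.Agent.LieClassical.SympCount Cfsg.Agent.H727.GW

variable {F : Type u} [Field F] [Finite F]

theorem nonempty_tuple {m : ℕ} {V : Type v} [AddCommGroup V] [Module F V] [FiniteDimensional F V]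
    {B : LinearMap.BilinForm F V} (hB : ∀ x, B x x = 0) (hnd : ∀ x, (∀ y, B x y = 0) → x = 0)
    (hr : finrank F V = 2 * m) : Nonempty (HypTuple B m) := by
  have := Fintype.ofFinite F
  have h1 := card_hypTuple' B hB hnd hr
  have h2 : Nat.card (HypTuple B m) ≠ 0 := by
    rw [h1]
    have hq : 1 < Fintype.card F := Fintype.one_lt_card
    refine mul_ne_zero (pow_ne_zero _ (by omega)) (Finset.prod_ne_zero_iff.2 fun i _ => ?_)
    have : 1 < Fintype.card F ^ (2 * (i + 1)) := Nat.one_lt_pow (by omega) hq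
    omega
  exact (Nat.card_ne_zero.1 h2).1

theorem gram {m : ℕ} {V : Type v} [AddCommGroup V] [Module F V] {B : LinearMap.BilinForm F V} (hB : ∀ x, B x x = 0)
    {V' : Type w} [AddCommGroup V'] [Module F V'] {B' : LinearMap.BilinForm F V'} (hB' : ∀ x, B' x x = 0)
    (p : HypTuple B m) (q : HypTuple B' m) (i j : Fin m ⊕ Fin m) :
    B (HypTuple.vec p i) (HypTuple.vec p j) = B' (HypTuple.vec q i) (HypTuple.vec q j) := by
  have sw : ∀ x y, B x y = - B y x := by
    intro x y
    have h1 := hB (x + y)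
    simp only [map_add, LinearMap.add_apply, hB, zero_add, add_zero] at h1
    linear_combination h1
  have sw' : ∀ x y, B' x y = - B' y x := by
    intro x y
    have h1 := hB' (x + y)
    simp only [map_add, LinearMap.add_apply, hB', zero_add, add_zero] at h1
    linear_combination h1
  rcases i with i | i <;> rcases j with j | j
  · exact ((p.2 i j).1).trans ((q.2 i j).1).symm
  · exact ((p.2 i j).2.2).trans ((q.2 i j).2.2).symm
  · show B (p.1 i).2 (p.1 j).1 = B' (q.1 i).2 (q.1 j).1
    rw [sw, sw' (q.1 i).2]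
    exact congrArg Neg.neg (((p.2 j i).2.2).trans ((q.2 j i).2.2).symm)
  · exact ((p.2 i j).2.1).trans ((q.2 i j).2.1).symm

theorem exists_iso {m : ℕ} {V : Type v} [AddCommGroup V] [Module F V] [FiniteDimensional F V] {V' : Type w}
    [AddCommGroup V'] [Module F V'] [FiniteDimensional F V'] {B : LinearMap.BilinForm F V} {B' : LinearMap.BilinForm F V'}
    (hB : ∀ x, B x x = 0) (hnd : ∀ x, (∀ y, B x y = 0) → x = 0) (hr : finrank F V = 2 * m)
    (hB' : ∀ x, B' x x = 0) (hnd' : ∀ x, (∀ y, B' x y = 0) → x = 0) (hr' : finrank F V' = 2 * m) :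
    ∃ φ : V ≃ₗ[F] V', ∀ x y, B' (φ x) (φ y) = B x y := by
  obtain ⟨p⟩ := nonempty_tuple hB hnd hr
  obtain ⟨q⟩ := nonempty_tuple hB' hnd' hr'
  refine ⟨(HypTuple.basis hB hr p).equiv (HypTuple.basis hB' hr' q) (Equiv.refl _), fun x y => ?_⟩
  have key : (B'.compl₁₂ ((HypTuple.basis hB hr p).equiv (HypTuple.basis hB' hr' q) (Equiv.refl _) : V →ₗ[F] V')
      ((HypTuple.basis hB hr p).equiv (HypTuple.basis hB' hr' q) (Equiv.refl _) : V →ₗ[F] V')) = B := by
    refine (HypTuple.basis hB hr p).ext fun i => (HypTuple.basis hB hr p).ext fun j => ?_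
    rw [LinearMap.compl₁₂_apply, LinearEquiv.coe_coe, Basis.equiv_apply, Basis.equiv_apply, HypTuple.basis_apply,
      HypTuple.basis_apply, HypTuple.basis_apply, HypTuple.basis_apply]
    exact (gram hB hB' p q i j).symm
  exact LinearMap.congr_fun₂ key x y

end

/-! ### the element -/

section

open Cfsg.Agent.H126.PwO

variable {F : Type u} [Field F]

/-- `ker P(lev e)` if `P(e⁻¹)` is onto -/
theorem finrank_ker_lev {U : Type v} [AddCommGroup U] [Module F U] {e : U ≃ₗ[F] U} {P : F[X]}
    (hs : Function.Surjective (aeval (e.symm : End F U) P)) :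
    finrank F (LinearMap.ker (aeval (lev e : End F (U × Dual F U)) P)) = finrank F (LinearMap.ker (aeval (e : End F U) P)) := by
  have h0 : ∀ φ : Dual F U, φ ∘ₗ aeval (e.symm : End F U) P = 0 → φ = 0 := by
    intro φ h
    apply LinearMap.ext
    intro x
    obtain ⟨y, rfl⟩ := hs x
    exact LinearMap.congr_fun h y
  refine (LinearEquiv.finrank_eq (LinearEquiv.ofBijective
    ({ toFun := fun x => ⟨(x.1, 0), by
          rw [LinearMap.mem_ker, aeval_lev, LinearMap.mem_ker.1 x.2, LinearMap.zero_comp]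
          rfl⟩
       map_add' := fun x y => Subtype.ext (Prod.ext rfl (add_zero 0).symm)
       map_smul' := fun c x => Subtype.ext (Prod.ext rfl (smul_zero c).symm) } :
      LinearMap.ker (aeval (e : End F U) P) →ₗ[F] LinearMap.ker (aeval (lev e : End F (U × Dual F U)) P)) ⟨?_, ?_⟩)).symm
  · intro x y h
    exact Subtype.ext (congrArg (fun z => (Subtype.val z).1) h)
  · rintro ⟨x, hx⟩
    rw [LinearMap.mem_ker, aeval_lev] at hx
    have h1 := congrArg Prod.fst hx
    have h2 := h0 _ (congrArg Prod.snd hx)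
    exact ⟨⟨x.1, h1⟩, Subtype.ext (Prod.ext rfl h2.symm)⟩

/-- the kernel of `P(e × 1)` -/
theorem aeval_prod {U : Type v} [AddCommGroup U] [Module F U] {W : Type w} [AddCommGroup W] [Module F W]
    (a : End F U) (b : End F W) (P : F[X]) (x : U × W) :
    aeval (LinearMap.prodMap a b) P x = (aeval a P x.1, aeval b P x.2) := by
  induction P using Polynomial.induction_on' with
  | add p q hp hq =>
    rw [map_add, map_add, map_add, LinearMap.add_apply, LinearMap.add_apply, LinearMap.add_apply, hp, hq]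
    rfl
  | monomial n c =>
    have h : (LinearMap.prodMap a b : End F (U × W)) ^ n = LinearMap.prodMap (a ^ n) (b ^ n) := by
      induction n with
      | zero => rfl
      | succ n ih => rw [pow_succ, ih, pow_succ, pow_succ]; rfl
    rw [aeval_monomial, aeval_monomial, aeval_monomial, ← Algebra.smul_def, ← Algebra.smul_def, ← Algebra.smul_def, h]
    rfl

theorem eval_one_ne {t : ℕ} {f : F[X]} (hf : Pol F 3 t f) : f.eval 1 ≠ 0 := by
  intro h
  have h1 := Polynomial.degree_eq_one_of_irreducible_of_root hf.irr h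
  have h2 := Polynomial.natDegree_eq_of_degree_eq_some h1
  have h3 := hf.deg
  rw [h3] at h2
  norm_num at h2

theorem aeval_one_apply {W : Type w} [AddCommGroup W] [Module F W] (P : F[X]) (x : W) :
    aeval (1 : End F W) P x = P.eval 1 • x := by
  have h : (1 : End F W) = algebraMap F (End F W) 1 := (map_one _).symm
  rw [h, aeval_algebraMap_apply]
  simp [Module.algebraMap_end_apply]

/-- **The element.** -/
theorem exists_elt [Finite F] {t : ℕ} (h3 : t ∣ Nat.card F ^ 3 - 1) (h1 : ¬ t ∣ Nat.card F - 1)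
    (h2 : ¬ t ∣ Nat.card F ^ 2 - 1) (hc : ∀ i < 3, ¬ t ∣ Nat.card F ^ i + 1) :
    ∃ (U : Type u) (_ : AddCommGroup U) (_ : Module F U) (_ : FiniteDimensional F U) (e : U ≃ₗ[F] U) (P : F[X]),
      finrank F U = 6 ∧ e ^ t = 1 ∧ finrank F (LinearMap.ker (aeval (lev e : End F (U × Dual F U)) P)) = 3 := by
  obtain ⟨f, hf⟩ := exists_pol F (s := t) (d := 3) (by norm_num) h3 (by
    intro k hk hk3 h
    interval_cases k
    · rw [pow_one] at h; exact h1 h
    · exact h2 h)
  have : Fact (Irreducible f) := ⟨hf.irr⟩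
  have hdim : finrank F (AdjoinRoot f) = 3 := by
    rw [(AdjoinRoot.powerBasis hf.irr.ne_zero).finrank, AdjoinRoot.powerBasis_dim, hf.deg]
  have hfd : FiniteDimensional F (AdjoinRoot f) := .of_finrank_pos (by rw [hdim]; norm_num)
  obtain ⟨y, hy⟩ : ∃ x, x = AdjoinRoot.root f := ⟨_, rfl⟩
  have hroot : aeval y f = 0 := by rw [hy, AdjoinRoot.aeval_eq, AdjoinRoot.mk_self]
  have hyt : y ^ t = 1 := by
    obtain ⟨g, hg⟩ := (hf.dvd t).2 dvd_rfl
    have h := congrArg (aeval y) hg
    rw [map_mul, hroot, zero_mul, map_sub, map_pow, aeval_X, map_one] at h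
    exact sub_eq_zero.1 h
  have ht0 : t ≠ 0 := by
    rintro rfl
    have hq : 2 ≤ Nat.card F := Finite.one_lt_card
    have h8 : 2 ^ 3 ≤ Nat.card F ^ 3 := Nat.pow_le_pow_left hq 3
    rw [zero_dvd_iff] at h3
    omega
  have hy0 : y ≠ 0 := by
    rintro rfl
    rw [zero_pow ht0] at hyt
    exact zero_ne_one hyt
  have hinv : aeval y⁻¹ f ≠ 0 := by
    intro h
    obtain ⟨a, b, hab⟩ := hf.cop hc
    have h5 := congrArg (aeval y) hab
    rw [map_add, map_mul, map_mul, hroot, mul_zero, zero_add, map_one] at h5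
    have hy' : y⁻¹ ≠ 0 := inv_ne_zero hy0
    have := invertibleOfNonzero hy'
    have h6 := (eval₂_reverse_eq_zero_iff (algebraMap F (AdjoinRoot f)) y⁻¹ f).2 h
    rw [invOf_eq_inv, inv_inv] at h6
    have h7 : aeval y f.reverse = 0 := h6
    rw [h7, mul_zero] at h5
    exact zero_ne_one h5
  have he1 := eval_one_ne hf
  let e₀ : AdjoinRoot f ≃ₗ[F] AdjoinRoot f := LinearEquiv.ofLinearMap (Algebra.lmul F _ y) (Algebra.lmul F _ y⁻¹)
    (by
      apply LinearMap.ext
      intro x
      change y * (y⁻¹ * x) = x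
      rw [mul_inv_cancel_left₀ hy0])
    (by
      apply LinearMap.ext
      intro x
      change y⁻¹ * (y * x) = x
      rw [inv_mul_cancel_left₀ hy0])
  have e₀p : ∀ n : ℕ, ∀ x, (e₀ ^ n) x = y ^ n * x := by
    intro n
    induction n with
    | zero => intro x; rw [pow_zero, pow_zero, one_mul]; rfl
    | succ n ih =>
      intro x
      rw [pow_succ, LinearEquiv.mul_apply, ih]
      change y ^ n * (y * x) = _
      rw [pow_succ, mul_assoc]
  let e : (AdjoinRoot f × (Fin 3 → F)) ≃ₗ[F] (AdjoinRoot f × (Fin 3 → F)) := LinearEquiv.prodCongr e₀ (LinearEquiv.refl F _)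
  have ha : ∀ (P : F[X]) (x : AdjoinRoot f × (Fin 3 → F)),
      aeval (e : End F (AdjoinRoot f × (Fin 3 → F))) P x = (aeval y P * x.1, P.eval 1 • x.2) := by
    intro P x
    have h5 : (e : End F (AdjoinRoot f × (Fin 3 → F))) = LinearMap.prodMap (Algebra.lmul F _ y) 1 := rfl
    rw [h5, aeval_prod, aeval_algHom_apply, aeval_one_apply]
    rfl
  have ha' : ∀ (P : F[X]) (x : AdjoinRoot f × (Fin 3 → F)),
      aeval (e.symm : End F (AdjoinRoot f × (Fin 3 → F))) P x = (aeval y⁻¹ P * x.1, P.eval 1 • x.2) := by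
    intro P x
    have h5 : (e.symm : End F (AdjoinRoot f × (Fin 3 → F))) = LinearMap.prodMap (Algebra.lmul F _ y⁻¹) 1 := rfl
    rw [h5, aeval_prod, aeval_algHom_apply, aeval_one_apply]
    rfl
  refine ⟨AdjoinRoot f × (Fin 3 → F), inferInstance, inferInstance, inferInstance, e, f, ?_, ?_, ?_⟩
  · rw [Module.finrank_prod, hdim, Module.finrank_fin_fun]
  · have h5 : ∀ n : ℕ, ∀ x, (e ^ n) x = (y ^ n * x.1, x.2) := by
      intro n
      induction n with
      | zero => intro x; rw [pow_zero, pow_zero, one_mul]; rfl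
      | succ n ih =>
        intro x
        rw [pow_succ, LinearEquiv.mul_apply, ih]
        change (y ^ n * (y * x.1), x.2) = _
        rw [pow_succ, mul_assoc]
    apply LinearEquiv.ext
    intro x
    rw [h5, hyt, one_mul]
    rfl
  · rw [finrank_ker_lev (fun x => ⟨((aeval y⁻¹ f)⁻¹ * x.1, (f.eval 1)⁻¹ • x.2), by
      rw [ha', mul_inv_cancel_left₀ hinv, smul_smul, mul_inv_cancel₀ he1, one_smul]⟩)]
    refine Eq.trans ?_ hdim
    refine (LinearEquiv.finrank_eq (LinearEquiv.ofBijective
      ({ toFun := fun x => ⟨(x, 0), by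
            rw [LinearMap.mem_ker, ha, hroot, zero_mul, smul_zero]
            rfl⟩
         map_add' := fun x y => Subtype.ext (Prod.ext rfl (add_zero 0).symm)
         map_smul' := fun c x => Subtype.ext (Prod.ext rfl (smul_zero c).symm) } :
        AdjoinRoot f →ₗ[F] LinearMap.ker (aeval (e : End F (AdjoinRoot f × (Fin 3 → F))) f)) ⟨?_, ?_⟩)).symm
    · intro x y h
      exact congrArg (fun z => (Subtype.val z).1) h
    · rintro ⟨x, hx⟩
      rw [LinearMap.mem_ker, ha] at hx
      have h2 : x.2 = 0 := (smul_eq_zero.1 (congrArg Prod.snd hx)).resolve_left he1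
      exact ⟨x.1, Subtype.ext (Prod.ext rfl h2.symm)⟩

end

end Cfsg.Agent.H150.Rs
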